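import Mathlib
import Cfsg.Agent.H33.Frattini
import Cfsg.Agent.Transfer.NPC
import Cfsg.Agent.Transfer.Residual
import Cfsg.Agent.Solv.Core
import Cfsg.Agent.BG.Core
import Cfsg.Agent.Cop.Basic

/-!
Centric subgroups: `C_G(Q) = Z(Q) × O_{p'}(C_G(Q))`, replacing a conjugating element of a normal `p'`-subgroup, and the
smallest centric radical subgroup when the normalizer of a centric normal subgroup controls strong fusion.
-/

set_option autoImplicit false

namespace Cfsg.Agent.ZJ.CR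

open Cfsg Subgroup
open Cfsg.Agent.H33

variable {G : Type*} [Group G] [Finite G] {p : ℕ} [hp : Fact p.Prime]

/-- `O_{p'}` of a subgroup. -/
def opc (p : ℕ) (C : Subgroup G) : Subgroup G := (pPrimeCore p C).map C.subtype

omit [Finite G] hp in
theorem opc_le (C : Subgroup G) : opc p C ≤ C := map_subtype_le _

omit [Finite G] hp in
theorem norm_opc (C : Subgroup G) : normalizer (C : Set G) ≤ normalizer (opc p C : Set G) :=
  BG.normalizer_le_normalizer_map_char C (pPrimeCore p C)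

omit hp in
theorem card_opc (C : Subgroup G) : (Nat.card (opc p C)).Coprime p := by
  rw [opc, BG.card_map_subtype]
  exact Solv.pPrimeCore_card_coprime p

/-- a central Sylow subgroup has the normal complement `O_{p'}`. -/
theorem sup_opc_of_central {T C : Subgroup G} (hT : IsSyl p T C) (hc : T ≤ centralizer (C : Set G)) :
    T ⊔ opc p C = C := by
  have hNPC : HasNormalPComplement p C := by
    apply Transfer.hasNPC_of_normalizer_le_centralizer hT.toSylow
    intro c _
    rw [mem_centralizer_iff]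
    intro t ht
    have ht' : (t : G) ∈ T := ht
    exact Subtype.ext ((mem_centralizer_iff.1 (hc ht') c c.2).symm)
  have hres : pResidual p C ≤ pPrimeCore p C :=
    Solv.le_pPrimeCore inferInstance (Transfer.hasNPC_iff_card_pResidual.mp hNPC)
  have hsup := Transfer.sylow_sup_pResidual hT.toSylow
  have h2 : (hT.toSylow : Subgroup C) ⊔ pPrimeCore p C = ⊤ :=
    top_le_iff.1 (hsup ▸ sup_le_sup_left hres _)
  have h3 := congrArg (fun X : Subgroup C => X.map C.subtype) h2
  simp only [Subgroup.map_sup] at h3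
  rw [hT.toSylow_map, ← MonoidHom.range_eq_map, range_subtype] at h3
  exact h3

omit [Finite G] in
theorem coprime_pow_of_isPGroup {x : G} {n : ℕ} (hx : x ^ p ^ n = 1) {m : ℕ} (hm : m.Coprime p) (h : x ^ m = 1) :
    x = 1 := by
  have h1 : orderOf x ∣ p ^ n := orderOf_dvd_of_pow_eq_one hx
  have h2 : orderOf x ∣ m := orderOf_dvd_of_pow_eq_one h
  have h3 : orderOf x ∣ 1 := by
    rw [← Nat.Coprime.gcd_eq_one (hm.pow_right n)]
    exact Nat.dvd_gcd h2 h1
  exact orderOf_eq_one_iff.1 (Nat.dvd_one.1 h3)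

omit [Finite G] in
theorem eq_one_of_mem {S K : Subgroup G} (hS : IsPGroup p S) (hK : (Nat.card K).Coprime p) {x : G} (h1 : x ∈ S)
    (h2 : x ∈ K) : x = 1 := by
  obtain ⟨n, hn⟩ := hS ⟨x, h1⟩
  refine coprime_pow_of_isPGroup (n := n) (congrArg Subtype.val hn) hK ?_
  have := pow_card_eq_one' (x := (⟨x, h2⟩ : K))
  exact congrArg Subtype.val this

omit [Finite G] in
/-- the `p'`-elements of `T × K` are in `K`. -/
theorem mem_of_pow {T K : Subgroup G} (hT : IsPGroup p T) (hK : (Nat.card K).Coprime p)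
    (hc : ∀ t ∈ T, ∀ k ∈ K, Commute t k) {x : G} (hx : x ∈ T ⊔ K) {m : ℕ} (hm : m.Coprime p)
    (h : x ^ m = 1) : x ∈ K := by
  have hn : T ≤ normalizer (K : Set G) := by
    intro t ht
    apply cent_le_norm' K
    rw [mem_centralizer_iff]
    intro k hk
    exact ((hc t ht k hk).eq).symm
  obtain ⟨t, ht, k, hk, rfl⟩ := (mem_sup_right_norm hn).1 hx
  have h1 : t ^ m * k ^ m = 1 := by rw [← (hc t ht k hk).mul_pow, h]
  have h2 : t ^ m ∈ K := by
    rw [mul_eq_one_iff_eq_inv] at h1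
    rw [h1]
    exact inv_mem (pow_mem hk m)
  have h3 : t ^ m = 1 := eq_one_of_mem hT hK (pow_mem ht m) h2
  obtain ⟨n, hn⟩ := hT ⟨t, ht⟩
  have h4 : t = 1 := coprime_pow_of_isPGroup (n := n) (congrArg Subtype.val hn) hm h3
  rw [h4, one_mul]; exact hk

omit [Finite G] in
theorem card_mul_relIndex' {A B : Subgroup G} (h : A ≤ B) : Nat.card A * A.relIndex B = Nat.card B := by
  have := relIndex_mul_relIndex ⊥ A B bot_le h
  rwa [relIndex_bot_left, relIndex_bot_left] at this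

/-- replace `k ∈ K` by an element of `K ∩ M`. -/
theorem factor {K M A : Subgroup G} (hK : (Nat.card K).Coprime p) (hA : IsPGroup p A)
    (hAK : A ≤ normalizer (K : Set G)) (hAM : A ≤ M) {k : G} (hk : k ∈ K) (hkA : cj k A ≤ M) :
    ∃ k' ∈ K ⊓ M, ∃ c ∈ K ⊓ centralizer (A : Set G), k = k' * c := by
  have hAKM : A ≤ normalizer ((K ⊓ M : Subgroup G) : Set G) := fun a ha =>
    norm_inf (hAK ha) (le_normalizer (hAM ha))
  have h1 : ∀ a ∈ A, k * a * k⁻¹ ∈ A ⊔ (K ⊓ M) := by
    intro a ha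
    have h2 : k * a * k⁻¹ * a⁻¹ ∈ K := by
      have := mul_mem hk ((mem_normalizer_iff.1 (hAK ha) k⁻¹).1 (inv_mem hk))
      convert this using 1; group
    have h3 : k * a * k⁻¹ * a⁻¹ ∈ M := mul_mem (hkA (conj_mem_cj ha)) (inv_mem (hAM ha))
    have h4 : k * a * k⁻¹ = (k * a * k⁻¹ * a⁻¹) * a := by group
    rw [h4]
    exact mul_mem (le_sup_right (a := A) ⟨h2, h3⟩) (le_sup_left (a := A) ha)
  have h2 : cj k A ≤ A ⊔ (K ⊓ M) := by
    rw [cj_le_iff]; exact h1
  have hKM : (Nat.card (K ⊓ M : Subgroup G)).Coprime p :=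
    Nat.Coprime.coprime_dvd_left (card_dvd_of_le inf_le_left) hK
  have h3 : IsSyl p A (A ⊔ (K ⊓ M)) := by
    refine ⟨le_sup_left, hA, ?_⟩
    intro hd
    have h4 : A.relIndex (A ⊔ (K ⊓ M)) ∣ Nat.card (K ⊓ M : Subgroup G) := by
      have h5 : (K ⊓ M).relIndex (A ⊔ (K ⊓ M)) = (K ⊓ M).relIndex A := Cop.relIndex_sup_eq hAKM
      have h6 := card_mul_relIndex' (A := A) (B := A ⊔ (K ⊓ M)) le_sup_left
      have h7 := card_mul_relIndex' (A := K ⊓ M) (B := A ⊔ (K ⊓ M)) le_sup_right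
      rw [← h7, h5] at h6
      have h8 : Nat.card A * A.relIndex (A ⊔ (K ⊓ M)) ∣ Nat.card A * Nat.card (K ⊓ M : Subgroup G) := by
        rw [h6, mul_comm (Nat.card A)]
        exact Nat.mul_dvd_mul_left _ (relIndex_dvd_card _ _)
      exact Nat.dvd_of_mul_dvd_mul_left Nat.card_pos h8
    have h6 := Nat.Coprime.coprime_dvd_left h4 hKM
    exact hp.out.one_lt.ne' (Nat.Coprime.eq_one_of_dvd h6.symm hd)
  obtain ⟨x, hx, hxA⟩ := h3.conj_le h2 (isPGroup_cj hA)
  have hxA' : cj x (cj k A) = A := eq_of_le_of_card_ge hxA (by rw [card_cj, card_cj])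
  obtain ⟨a, ha, y, hy, rfl⟩ := (mem_sup_right_norm hAKM).1 hx
  have h7 : cj (y * k) A = A := by
    rw [cj_mul] at hxA' ⊢
    have h8 : cj a A = A := mem_norm_iff.1 (le_normalizer ha)
    rw [← cj_inj (g := a), h8]
    exact hxA'
  refine ⟨y⁻¹, inv_mem hy, y * k, ⟨mul_mem hy.1 hk, ?_⟩, by group⟩
  show y * k ∈ centralizer (A : Set G)
  rw [mem_centralizer_iff]
  intro a' ha'
  have hyk : y * k ∈ K := mul_mem hy.1 hk
  have h9 : y * k * a' * (y * k)⁻¹ * a'⁻¹ = 1 := by
    apply eq_one_of_mem hA hK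
    · refine mul_mem ?_ (inv_mem ha')
      have := (mem_normalizer_iff.1 (mem_norm_iff.2 h7) a').1 ha'
      exact this
    · have := mul_mem hyk ((mem_normalizer_iff.1 (hAK ha') (y * k)⁻¹).1 (inv_mem hyk))
      convert this using 1; group
  rw [mul_inv_eq_one, mul_inv_eq_iff_eq_mul] at h9
  exact h9.symm

/-- the preimage in `N` of `O_p(N/K)`. -/
theorem exists_L {K N : Subgroup G} (hKN : K ≤ N) (hNK : N ≤ normalizer (K : Set G)) :
    ∃ L : Subgroup G, K ≤ L ∧ L ≤ N ∧ N ≤ normalizer (L : Set G) ∧ (∃ n : ℕ, K.relIndex L = p ^ n) ∧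
      ∀ X S : Subgroup G, X ≤ N → N ≤ normalizer (X : Set G) → IsPGroup p S → S ≤ N → X ≤ S ⊔ K → X ≤ L := by
  obtain ⟨K1, hK1⟩ : ∃ K1 : Subgroup N, K1 = K.subgroupOf N := ⟨_, rfl⟩
  have hK1n : K1.Normal := by rw [hK1]; exact BG.normal_subgroupOf_of_le_normalizer hNK
  obtain ⟨L1, hL1⟩ : ∃ L1 : Subgroup N, L1 = (pCore p (N ⧸ K1)).comap (QuotientGroup.mk' K1) := ⟨_, rfl⟩
  have hL1n : L1.Normal := by rw [hL1]; infer_instance
  have hKL1 : K1 ≤ L1 := by
    intro x hx
    rw [hL1, mem_comap]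
    have : QuotientGroup.mk' K1 x = 1 := (QuotientGroup.eq_one_iff x).2 hx
    rw [this]; exact one_mem _
  refine ⟨L1.map N.subtype, ?_, map_subtype_le _, ?_, ?_, ?_⟩
  · intro x hx
    exact ⟨⟨x, hKN hx⟩, hKL1 (by rw [hK1]; exact hx), rfl⟩
  · exact BG.le_normalizer_map_normal N L1
  · have e1 : K = K1.map N.subtype := by rw [hK1, BG.map_subtype_subgroupOf hKN]
    have h1 : K.relIndex (L1.map N.subtype) = K1.relIndex L1 := by
      rw [e1]
      exact relIndex_map_map_of_injective K1 L1 N.subtype_injective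
    have h2 : K1.relIndex L1 = Nat.card (L1.map (QuotientGroup.mk' K1)) := by
      rw [← relIndex_ker, QuotientGroup.ker_mk']
    have h3 : IsPGroup p (L1.map (QuotientGroup.mk' K1)) := by
      refine (Solv.pCore_isPGroup (G := N ⧸ K1) p).to_le ?_
      rw [hL1]
      exact map_comap_le _ _
    obtain ⟨n, hn⟩ := IsPGroup.iff_card.1 h3
    exact ⟨n, by rw [h1, h2, hn]⟩
  · intro X S hXN hNX hS hSN hXS
    have hX1 : (X.subgroupOf N).Normal := BG.normal_subgroupOf_of_le_normalizer hNX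
    have h1 : IsPGroup p ((X.subgroupOf N).map (QuotientGroup.mk' K1)) := by
      rintro ⟨_, x, hx, rfl⟩
      have hx' : (x : G) ∈ S ⊔ K := hXS hx
      obtain ⟨s, hs, k, hk, hsk⟩ := (mem_sup_right_norm (hSN.trans hNK)).1 hx'
      obtain ⟨n, hn⟩ := hS ⟨s, hs⟩
      refine ⟨n, ?_⟩
      have e1 : x = ⟨s, hSN hs⟩ * ⟨k, hKN hk⟩ := Subtype.ext hsk
      have e2 : QuotientGroup.mk' K1 x = QuotientGroup.mk' K1 ⟨s, hSN hs⟩ := by
        rw [e1, map_mul]
        have : QuotientGroup.mk' K1 ⟨k, hKN hk⟩ = 1 := (QuotientGroup.eq_one_iff _).2 (by rw [hK1]; exact hk)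
        rw [this, mul_one]
      apply Subtype.ext
      show (QuotientGroup.mk' K1 x) ^ p ^ n = 1
      rw [e2, ← map_pow]
      have h0 : s ^ p ^ n = 1 := congrArg Subtype.val hn
      have : (⟨s, hSN hs⟩ : N) ^ p ^ n = 1 := Subtype.ext h0
      rw [this, map_one]
    have h2 : (X.subgroupOf N).map (QuotientGroup.mk' K1) ≤ pCore p (N ⧸ K1) :=
      Solv.le_pCore (hX1.map _ (QuotientGroup.mk'_surjective K1)) h1
    intro x hx
    refine ⟨⟨x, hXN hx⟩, ?_, rfl⟩
    rw [hL1]
    exact h2 ⟨⟨x, hXN hx⟩, hx, rfl⟩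

theorem eq_of_relIndex_dvd {T K X : Subgroup G} (hT : IsSyl p T X) {n : ℕ} (hK : K.relIndex X = p ^ n)
    {Y : Subgroup G} (hTY : T ≤ Y) (hKY : K ≤ Y) : X ≤ Y := by
  rw [← relIndex_eq_one]
  have h1 : Y.relIndex X ∣ p ^ n := hK ▸ relIndex_dvd_of_le_left X hKY
  have h2 : Y.relIndex X ∣ T.relIndex X := relIndex_dvd_of_le_left X hTY
  obtain ⟨k, hk, hk'⟩ := (Nat.dvd_prime_pow hp.out).1 h1
  rcases Nat.eq_zero_or_pos k with rfl | hpos
  · rw [hk', pow_zero]
  · exact absurd ((dvd_pow_self p hpos.ne').trans (hk' ▸ h2)) hT.2.2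

/-- a centric normal subgroup of `P` whose normalizer controls strong fusion gives the smallest centric radical
subgroup. -/
theorem exists_least (P : Sylow p G) (Q0 : Subgroup G) (hQ0 : Q0 ≤ (P : Subgroup G))
    (hP0 : (P : Subgroup G) ≤ normalizer (Q0 : Set G))
    (hcent : (P : Subgroup G) ⊓ centralizer (Q0 : Set G) ≤ Q0)
    (hctrl : ∀ A : Subgroup G, A ≤ (P : Subgroup G) → ∀ g : G, cj g A ≤ (P : Subgroup G) →
      ∃ h ∈ normalizer (Q0 : Set G), ∃ c ∈ centralizer (A : Set G), g = h * c)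
    (cr : Subgroup G → Prop)
    (hcr : ∀ Q : Subgroup G, cr Q ↔ (Q ≤ (P : Subgroup G) ∧
      (∃ R : Sylow p ↥(centralizer (Q : Set G)),
        (R : Subgroup ↥(centralizer (Q : Set G))).map (centralizer (Q : Set G)).subtype = Q ⊓ centralizer (Q : Set G)) ∧
      ∀ X : Subgroup G, X ≤ normalizer (Q : Set G) →
        (∀ n ∈ normalizer (Q : Set G), cj n X = X) →
        Q ⊔ centralizer (Q : Set G) ≤ X → (∃ k : ℕ, (Q ⊔ centralizer (Q : Set G)).relIndex X = p ^ k) →
        X = Q ⊔ centralizer (Q : Set G))) :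
    ∃ Q : Subgroup G, cr Q ∧ (∀ R : Subgroup G, cr R → Q ≤ R) ∧ (∀ x ∈ (P : Subgroup G), cj x Q = Q) ∧
      ∀ A : Subgroup G, A ≤ (P : Subgroup G) → ∀ g : G, cj g A ≤ (P : Subgroup G) →
        ∃ h ∈ normalizer (Q : Set G), ∃ c ∈ centralizer (A : Set G), g = h * c := by
  obtain ⟨N, hNdef⟩ : ∃ N : Subgroup G, N = normalizer (Q0 : Set G) := ⟨_, rfl⟩
  obtain ⟨C, hCdef⟩ : ∃ C : Subgroup G, C = centralizer (Q0 : Set G) := ⟨_, rfl⟩
  obtain ⟨K, hKdef⟩ : ∃ K : Subgroup G, K = opc p C := ⟨_, rfl⟩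
  rw [← hNdef] at hP0 hctrl
  rw [← hCdef] at hcent
  have hCN : C ≤ N := by rw [hCdef, hNdef]; exact cent_le_norm' Q0
  have hNC : N ≤ normalizer (C : Set G) := by rw [hCdef, hNdef]; exact norm_le_norm_cent Q0
  have hPN : IsSyl p (P : Subgroup G) N := (isSyl_top P).mono hP0 le_top
  have hPC : IsSyl p ((P : Subgroup G) ⊓ C) C := hPN.inf_normal hCN hNC
  have hPCc : (P : Subgroup G) ⊓ C ≤ centralizer (C : Set G) := by
    intro x hx
    rw [mem_centralizer_iff]
    intro c hc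
    have hc' : c ∈ centralizer (Q0 : Set G) := by rw [← hCdef]; exact hc
    exact (mem_centralizer_iff.1 hc' x (hcent hx)).symm
  have hPCK : ((P : Subgroup G) ⊓ C) ⊔ K = C := by rw [hKdef]; exact sup_opc_of_central hPC hPCc
  have hKC : K ≤ C := by rw [hKdef]; exact opc_le C
  have hKN : K ≤ N := hKC.trans hCN
  have hNK : N ≤ normalizer (K : Set G) := by rw [hKdef]; exact hNC.trans (norm_opc C)
  have hKcop : (Nat.card K).Coprime p := by rw [hKdef]; exact card_opc C
  have hPp : IsPGroup p (P : Subgroup G) := P.2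
  obtain ⟨L, hKL, hLN, hNL, ⟨nL, hnL⟩, hLmax⟩ := exists_L (p := p) hKN hNK
  have hPL : IsSyl p ((P : Subgroup G) ⊓ L) L := hPN.inf_normal hLN hNL
  obtain ⟨Q, hQdef⟩ : ∃ Q : Subgroup G, Q = (P : Subgroup G) ⊓ L := ⟨_, rfl⟩
  rw [← hQdef] at hPL
  have hQP : Q ≤ (P : Subgroup G) := by rw [hQdef]; exact inf_le_left
  have hQN : Q ≤ N := hQP.trans hP0
  have hLQ : L ≤ Q ⊔ K := eq_of_relIndex_dvd hPL hnL le_sup_left le_sup_right
  have hQ0Q : Q0 ≤ Q := by
    rw [hQdef]
    refine le_inf hQ0 ?_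
    refine hLmax Q0 Q0 (hQ0.trans hP0) (by rw [hNdef]) (hPp.to_le hQ0) (hQ0.trans hP0) le_sup_left
  obtain ⟨M, hMdef⟩ : ∃ M : Subgroup G, M = normalizer (Q : Set G) := ⟨_, rfl⟩
  have hPM : (P : Subgroup G) ≤ M := by
    intro x hx
    rw [hMdef, hQdef]
    exact norm_inf (le_normalizer hx) (hNL (hP0 hx))
  have hMN : M ≤ N := by
    intro g hg
    have h1 : cj g Q = Q := by rw [hMdef] at hg; exact mem_norm_iff.1 hg
    obtain ⟨h, hh, c, hc, rfl⟩ := hctrl Q hQP g (by rw [h1]; exact hQP)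
    refine mul_mem hh (hCN ?_)
    rw [hCdef]
    exact centralizer_le (SetLike.coe_subset_coe.2 hQ0Q) hc
  have hfrat : ∀ n ∈ N, ∃ m ∈ M, ∃ k ∈ K, n = m * k := by
    intro n hn
    obtain ⟨l, hl, hln⟩ := hPL.frattini (hNL (inv_mem hn))
    obtain ⟨q, hq, k, hk, rfl⟩ := (mem_sup_right_norm (hQN.trans hNK)).1 (hLQ hl)
    refine ⟨(q * k * n⁻¹)⁻¹ * q, mul_mem (inv_mem (by rw [hMdef]; exact hln)) (hPM (hQP hq)), k, hk, ?_⟩
    group
  -- the factorization
  have hctrl2 : ∀ A : Subgroup G, A ≤ (P : Subgroup G) → ∀ g : G, cj g A ≤ (P : Subgroup G) →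
      ∃ h ∈ M, ∃ c ∈ centralizer (A : Set G), g = h * c := by
    intro A hA g hg
    obtain ⟨n, hn, c, hc, rfl⟩ := hctrl A hA g hg
    obtain ⟨m, hm, k, hk, rfl⟩ := hfrat n hn
    have h1 : cj c A = A := mem_norm_iff.1 (cent_le_norm' A hc)
    rw [cj_mul, h1, cj_mul] at hg
    have h2 : cj k A ≤ M := by
      have h3 := cj_mono (g := m⁻¹) hg
      rw [cj_inv_cj] at h3
      refine h3.trans ((cj_mono hPM).trans ?_)
      rw [mem_norm_iff.1 (le_normalizer (inv_mem hm))]
    obtain ⟨k', hk', c', hc', rfl⟩ := factor hKcop (hPp.to_le hA) ((hA.trans hP0).trans hNK) (hA.trans hPM) hk h2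
    exact ⟨m * k', mul_mem hm hk'.2, c' * c, mul_mem hc'.2 hc, by group⟩
  have hPMs : IsSyl p (P : Subgroup G) M := (isSyl_top P).mono hPM le_top
  obtain ⟨D, hDdef⟩ : ∃ D : Subgroup G, D = centralizer (Q : Set G) := ⟨_, rfl⟩
  have hDC : D ≤ C := by rw [hDdef, hCdef]; exact centralizer_le (SetLike.coe_subset_coe.2 hQ0Q)
  have hDM : D ≤ M := by rw [hDdef, hMdef]; exact cent_le_norm' Q
  have hMD : M ≤ normalizer (D : Set G) := by rw [hDdef, hMdef]; exact norm_le_norm_cent Q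
  have hPD : (P : Subgroup G) ⊓ D = Q ⊓ D := by
    apply le_antisymm
    · exact le_inf (((inf_le_inf_left _ hDC).trans hcent).trans hQ0Q) inf_le_right
    · exact inf_le_inf_right _ hQP
  have hQDs : IsSyl p (Q ⊓ D) D := by
    rw [← hPD]; exact hPMs.inf_normal hDM hMD
  have hcrQ : cr Q := by
    rw [hcr]
    refine ⟨hQP, ?_, ?_⟩
    · rw [← hDdef]
      exact ⟨hQDs.toSylow, hQDs.toSylow_map⟩
    · intro X hXM hXn hQX hk
      rw [← hDdef] at hQX hk ⊢
      rw [← hMdef] at hXM hXn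
      obtain ⟨k, hk⟩ := hk
      have hMX : M ≤ normalizer (X : Set G) := fun m hm => mem_norm_iff.2 (hXn m hm)
      have hPX : IsSyl p ((P : Subgroup G) ⊓ X) X := hPMs.inf_normal hXM hMX
      have h1 : X ≤ ((P : Subgroup G) ⊓ X) ⊔ D :=
        eq_of_relIndex_dvd hPX hk le_sup_left
          (sup_le_sup_right (le_inf hQP (le_sup_left.trans hQX)) _)
      have hQDc : Q ⊓ D ≤ centralizer (D : Set G) := by
        intro x hx
        rw [mem_centralizer_iff]
        intro d hd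
        have hd' : d ∈ centralizer (Q : Set G) := by rw [← hDdef]; exact hd
        exact (mem_centralizer_iff.1 hd' x hx.1).symm
      have h2 : (Q ⊓ D) ⊔ opc p D = D := sup_opc_of_central hQDs hQDc
      have h3 : opc p D ≤ K := by
        intro x hx
        refine mem_of_pow (T := (P : Subgroup G) ⊓ C) (hPp.to_le inf_le_left) hKcop ?_ ?_ (card_opc (p := p) D) ?_
        · intro t ht k hk
          exact (mem_centralizer_iff.1 (hPCc ht) k (hKC hk)).symm
        · rw [hPCK]; exact hDC (opc_le D hx)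
        · exact congrArg Subtype.val (pow_card_eq_one' (x := (⟨x, hx⟩ : opc p D)))
      have h4 : X ≤ ((P : Subgroup G) ⊓ X) ⊔ K := by
        refine h1.trans (sup_le le_sup_left ?_)
        rw [← h2]
        refine sup_le ?_ (h3.trans le_sup_right)
        exact (le_inf (inf_le_left.trans hQP) (inf_le_left.trans (le_sup_left.trans hQX))).trans le_sup_left
      have h5 : N ≤ normalizer ((X ⊔ K : Subgroup G) : Set G) := by
        intro n hn
        obtain ⟨m, hm, k, hk, rfl⟩ := hfrat n hn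
        exact mul_mem (norm_sup (hMX hm) (hNK (hMN hm))) (le_normalizer (le_sup_right (a := X) hk))
      have h6 : X ⊔ K ≤ L :=
        hLmax (X ⊔ K) ((P : Subgroup G) ⊓ X) (sup_le (hXM.trans hMN) hKN) h5 (hPp.to_le inf_le_left)
          (inf_le_left.trans hP0) (sup_le h4 le_sup_right)
      apply le_antisymm _ hQX
      refine h1.trans (sup_le_sup_right ?_ _)
      rw [hQdef]
      exact inf_le_inf_left _ (le_sup_left.trans h6)
  refine ⟨Q, hcrQ, ?_, ?_, ?_⟩
  · intro R hR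
    rw [hcr] at hR
    obtain ⟨hRP, ⟨RS, hRS⟩, hRX⟩ := hR
    have hPR : (P : Subgroup G) ⊓ centralizer (R : Set G) ≤ R := by
      have h1 : IsSyl p (R ⊓ centralizer (R : Set G)) (centralizer (R : Set G)) := by
        rw [← hRS]; exact isSyl_of_sylow _ RS
      rw [h1.eq_inf hPp (inf_le_left.trans hRP)]
      exact inf_le_left
    obtain ⟨U, hUdef⟩ : ∃ U : Subgroup G, U = Q ⊓ normalizer (R : Set G) := ⟨_, rfl⟩
    have hUn : U ≤ normalizer (R : Set G) := by rw [hUdef]; exact inf_le_right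
    have hURC : U ≤ normalizer ((R ⊔ centralizer (R : Set G) : Subgroup G) : Set G) := fun u hu =>
      norm_sup (hUn hu) (norm_le_norm_cent R (hUn hu))
    have h1 : U ⊔ (R ⊔ centralizer (R : Set G)) = R ⊔ centralizer (R : Set G) := by
      apply hRX
      · exact sup_le hUn (sup_le le_normalizer (cent_le_norm' R))
      · intro n hn
        obtain ⟨h, hh, c, hc, rfl⟩ := hctrl2 R hRP n (by rw [mem_norm_iff.1 hn]; exact hRP)
        have hcc : cj c (U ⊔ (R ⊔ centralizer (R : Set G))) = U ⊔ (R ⊔ centralizer (R : Set G)) :=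
          mem_norm_iff.1 (le_normalizer ((le_sup_right.trans le_sup_right : centralizer (R : Set G) ≤ _) hc))
        have hhR : h ∈ normalizer (R : Set G) := by
          have : h = (h * c) * c⁻¹ := by group
          rw [this]
          exact Subgroup.mul_mem _ hn (Subgroup.inv_mem _ (cent_le_norm' R hc))
        rw [cj_mul, hcc]
        apply mem_norm_iff.1
        refine norm_sup ?_ (norm_sup hhR (norm_le_norm_cent R hhR))
        rw [hUdef]
        rw [hMdef] at hh
        exact norm_inf hh (le_normalizer hhR)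
      · exact le_sup_right
      · have h2 : (R ⊔ centralizer (R : Set G)).relIndex (U ⊔ (R ⊔ centralizer (R : Set G))) =
            (R ⊔ centralizer (R : Set G)).relIndex U := Cop.relIndex_sup_eq hURC
        have hUp : IsPGroup p U := hPp.to_le (by rw [hUdef]; exact inf_le_left.trans hQP)
        obtain ⟨n, hn⟩ := IsPGroup.iff_card.1 hUp
        have h3 : (R ⊔ centralizer (R : Set G)).relIndex U ∣ p ^ n := hn ▸ relIndex_dvd_card _ _
        obtain ⟨k, -, hk⟩ := (Nat.dvd_prime_pow hp.out).1 h3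
        exact ⟨k, by rw [h2, hk]⟩
    have hUR : U ≤ R := by
      intro u hu
      have h2 : u ∈ R ⊔ centralizer (R : Set G) := by rw [← h1]; exact le_sup_left (a := U) hu
      obtain ⟨r, hr, c, hc, rfl⟩ := (mem_sup_right_norm (le_normalizer.trans (norm_le_norm_cent R))).1 h2
      refine mul_mem hr (hPR ⟨?_, hc⟩)
      have h3 : r * c ∈ (P : Subgroup G) := by
        rw [hUdef] at hu; exact hQP hu.1
      have : c = r⁻¹ * (r * c) := by group
      rw [this]
      exact Subgroup.mul_mem _ (Subgroup.inv_mem _ (hRP hr)) h3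
    by_contra hcon
    have hRn : R ≤ normalizer (Q : Set G) := by rw [← hMdef]; exact hRP.trans hPM
    have hlt : R < Q ⊔ R := lt_of_le_of_ne le_sup_right (fun h => hcon (by rw [h]; exact le_sup_left))
    have h2 := lt_inf_normalizer (hPp.to_le (sup_le hQP hRP)) hlt
    apply h2.not_ge
    intro x hx
    obtain ⟨q, hq, r, hr, rfl⟩ := (mem_sup_left_norm hRn).1 hx.1
    refine mul_mem (hUR ?_) hr
    rw [hUdef]
    refine ⟨hq, ?_⟩
    have : q = q * r * r⁻¹ := by group
    rw [this]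
    exact Subgroup.mul_mem _ hx.2 (Subgroup.inv_mem _ (le_normalizer hr))
  · intro x hx
    have := hPM hx
    rw [hMdef] at this
    exact mem_norm_iff.1 this
  · rw [← hMdef]; exact hctrl2

end Cfsg.Agent.ZJ.CR
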