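import Mathlib
import Cfsg.Agent.ZJ.LocalFree
import Cfsg.Agent.ZJ.CentRad
import Cfsg.Agent.H33.KInfFun
import Cfsg.Agent.S1983

/-!
K-infinity controls strong fusion when no automizer of a `p`-subgroup involves `SL(2, p)`.
-/

set_option autoImplicit false

namespace Cfsg.Agent.ZJ

open Cfsg Subgroup
open Cfsg.Agent.H33 (cj)

universe u

/-- a functor on `p`-groups which is normal in all constrained sections controls strong fusion. -/
theorem control_of_charP {p : ℕ} [Fact p.Prime] {W : ∀ (X : Type u) [Group X], Subgroup X}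
    (hWp : IsCharPFunctor.{u} p W)
    {G : Type u} [Group G] [Finite G]
    (hloc : ∀ (X : Type u) [Group X] [Finite X], H2.Sec X G →
      Subgroup.centralizer ((Cfsg.pCore p X : Subgroup X) : Set X) ≤ Cfsg.pCore p X →
      ∀ T : Sylow p X, (Cfsg.inducedFunctor W (T : Subgroup X)).Normal)
    (S : Sylow p G) (A : Subgroup G) (hA : A ≤ (S : Subgroup G)) (g : G)
    (hg : cj g A ≤ (S : Subgroup G)) :
    ∃ x ∈ Subgroup.normalizer (Cfsg.inducedFunctor W (S : Subgroup G) : Set G),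
      ∃ c ∈ Subgroup.centralizer (A : Set G), g = x * c := by
  have h𝓦 : ∀ W' ∈ ({@W} : Set (∀ (Q : Type u) [Group Q], Subgroup Q)), Cfsg.IsCharPFunctor.{u} p W' := by
    rintro W' rfl; exact hWp
  have e1 : ∀ (X : Type u) [Group X], H33.ind X ({@W} : Set (∀ (Q : Type u) [Group Q], Subgroup Q)) =
      {Cfsg.inducedFunctor (G := X) W} := by
    intro X _
    exact Set.image_singleton
  have key := H33.sf_sections (G := G) h𝓦 (by
    intro X _ hX hc
    rw [e1, ← H33.controls_iff_family]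
    haveI : Finite X := hX.finite
    obtain ⟨T⟩ : Nonempty (Sylow p X) := inferInstance
    have hn := hloc X hX hc T
    refine ⟨(T : Subgroup _), le_top, T.2, by
      rw [Subgroup.relIndex_top_right]; exact T.not_dvd_index, ?_⟩
    intro A h _ hA hA'
    refine ⟨h, ?_, fun a _ => rfl⟩
    have hn' : (Cfsg.inducedFunctor (G := X) W (T : Subgroup X)).Normal := hn
    rw [Subgroup.normalizer_eq_top_iff.2 hn']
    exact ⟨Subgroup.mem_top _, Subgroup.mem_top _⟩) G (H2.Sec.refl G)
  have h1 := H33.SFcontrol.of_family (H33.ind_conj h𝓦) key (H33.isSyl_top S)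
  have h2 := h1 A hA g (Subgroup.mem_top _) hg
  rw [e1, H33.nFam_singleton] at h2
  obtain ⟨x, hx, h6⟩ := h2.single_fam
  refine ⟨x, hx.2, x⁻¹ * g, ?_, by group⟩
  rw [Subgroup.mem_centralizer_iff]
  intro a ha
  have h7 := h6 a ha
  have h8 : g * a = x * a * x⁻¹ * g := by rw [h7]; group
  rw [mul_assoc, h8]; group

/-- the hypothesis of the statements gives local freeness. -/
theorem locFree_of_not_exists {p : ℕ} {G : Type*} [Group G]
    (hfree : ∀ Q : Subgroup G, IsPGroup p ↥Q → ¬ ∃ (H K : Subgroup G) (_ : (K.subgroupOf H).Normal),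
      Subgroup.centralizer (Q : Set G) ≤ K ∧ K ≤ H ∧ H ≤ Subgroup.normalizer (Q : Set G) ∧
      Nonempty ((↥H ⧸ K.subgroupOf H) ≃* Matrix.SpecialLinearGroup (Fin 2) (ZMod p))) : LocFree p G := by
  classical
  intro Q hQ H φ hH hφ hC
  apply hfree Q hQ
  obtain ⟨C, hCdef⟩ : ∃ C : Subgroup G, C = centralizer (Q : Set G) := ⟨_, rfl⟩
  have hHC : H ≤ normalizer (C : Set G) := by rw [hCdef]; exact hH.trans (H33.norm_le_norm_cent Q)
  have hC' : ∀ h : H, (h : G) ∈ C → φ h = 1 := by rw [hCdef]; exact hC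
  have hdec : ∀ x : ↥(H ⊔ C), ∃ h : H, ∃ c ∈ C, (x : G) = h * c := by
    intro x
    obtain ⟨a, ha, b, hb, hab⟩ := (H33.mem_sup_right_norm hHC).1 x.2
    exact ⟨⟨a, ha⟩, b, hb, hab⟩
  choose d hd using hdec
  have hwell : ∀ (h : H) (x : ↥(H ⊔ C)) (c : G), c ∈ C → (x : G) = h * c → φ (d x) = φ h := by
    intro h x c hc hx
    obtain ⟨c', hc', hx'⟩ := hd x
    have h1 : ((h⁻¹ * d x : H) : G) ∈ C := by
      have : ((h⁻¹ * d x : H) : G) = c * c'⁻¹ := by
        push_cast
        have : (h : G) * c = d x * c' := by rw [← hx, hx']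
        rw [inv_mul_eq_iff_eq_mul, ← mul_assoc, this]; group
      rw [this]; exact mul_mem hc (inv_mem hc')
    have h2 := hC' _ h1
    rw [map_mul, map_inv, inv_mul_eq_one] at h2
    exact h2.symm
  let ψ : ↥(H ⊔ C) →* Matrix.SpecialLinearGroup (Fin 2) (ZMod p) :=
    MonoidHom.mk' (fun x => φ (d x)) (by
      intro x y
      show φ (d (x * y)) = φ (d x) * φ (d y)
      obtain ⟨c, hc, hx⟩ := hd x
      obtain ⟨c', hc', hy⟩ := hd y
      rw [← map_mul]
      refine hwell (d x * d y) (x * y) (((d y : G)⁻¹ * c * d y) * c') ?_ ?_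
      · refine mul_mem ?_ hc'
        have h1 := inv_mem (hHC (d y).2)
        have h2 := (mem_normalizer_iff.1 h1 c).1 hc
        rwa [inv_inv] at h2
      · push_cast
        rw [hx, hy]; group)
  have hψs : Function.Surjective ψ := by
    intro s
    obtain ⟨h, rfl⟩ := hφ s
    exact ⟨⟨h, le_sup_left (a := H) h.2⟩, hwell h _ 1 (one_mem _) (by simp)⟩
  have hker : ((ψ.ker).map (H ⊔ C).subtype).subgroupOf (H ⊔ C) = ψ.ker := BG.subgroupOf_map_subtype_self _ _
  refine ⟨H ⊔ C, (ψ.ker).map (H ⊔ C).subtype, by rw [hker]; infer_instance, ?_, map_subtype_le _, ?_, ?_⟩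
  · rw [← hCdef]
    intro c hc
    refine ⟨⟨c, le_sup_right (a := H) hc⟩, ?_, rfl⟩
    show φ (d ⟨c, _⟩) = 1
    rw [hwell 1 ⟨c, _⟩ c hc (by simp), map_one]
  · rw [hCdef]
    exact sup_le hH (H33.cent_le_norm' Q)
  · have key : ∀ (M : Subgroup ↥(H ⊔ C)) [M.Normal], M = ψ.ker →
        Nonempty ((↥(H ⊔ C) ⧸ M) ≃* Matrix.SpecialLinearGroup (Fin 2) (ZMod p)) := by
      intro M _ hM
      subst hM
      exact ⟨QuotientGroup.quotientKerEquivOfSurjective ψ hψs⟩
    have : (((ψ.ker).map (H ⊔ C).subtype).subgroupOf (H ⊔ C)).Normal := by rw [hker]; infer_instance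
    exact key _ hker

/-- K-infinity controls strong fusion. -/
theorem kInf_control {p : ℕ} [Fact p.Prime] (hp : p ≠ 2) {G : Type u} [Group G] [Finite G] (hG : LocFree p G)
    (S : Sylow p G) (A : Subgroup G) (hA : A ≤ (S : Subgroup G)) (g : G)
    (hg : cj g A ≤ (S : Subgroup G)) :
    ∃ x ∈ Subgroup.normalizer (Cfsg.inducedFunctor Cfsg.kInfLower (S : Subgroup G) : Set G),
      ∃ c ∈ Subgroup.centralizer (A : Set G), g = x * c := by
  refine control_of_charP H33.charP_kInfLower ?_ S A hA g hg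
  intro X _ _ hX hc T
  by_contra hcon
  obtain ⟨-, -, -, -, -, h⟩ := Cfsg.Agent.S1983.result T (Or.inl hcon)
  obtain ⟨N, hN, h2⟩ := h hc
  apply h2
  exact isNormalizerPStable_of_locFree hp
    (locFree_of_surjective (locFree_of_sec hG hX) (QuotientGroup.mk' N) (QuotientGroup.mk'_surjective N))

end Cfsg.Agent.ZJ
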