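import Mathlib
import Cfsg.Agent.ZJ.CentRad

/-!
Local control of strong fusion lifts from a normal subgroup.
-/

set_option autoImplicit false

namespace Cfsg.Agent.ZJ.NL

open Cfsg Subgroup
open Cfsg.Agent.H33
open Cfsg.Agent.ZJ.CR

variable {G : Type*} [Group G] [Finite G] {p : ℕ} [hp : Fact p.Prime]

/-- `X / C_X(D)` is a `p`-group when `X` centralizes `D / Z` and `Z`. -/
theorem le_of_stab {X D Z T Y : Subgroup G} (hD : IsPGroup p D) (hXD : X ≤ normalizer (D : Set G))
    (hZD : Z ≤ D) (hXZ : X ≤ centralizer (Z : Set G)) (hXDZ : ∀ x ∈ X, ∀ d ∈ D, x * d * x⁻¹ * d⁻¹ ∈ Z)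
    (hT : IsSyl p T X) (hTY : T ≤ Y) (hCY : X ⊓ centralizer (D : Set G) ≤ Y) : X ≤ Y := by
  have hn : ((centralizer (D : Set G)).subgroupOf X).Normal :=
    BG.normal_subgroupOf_of_le_normalizer (hXD.trans (norm_le_norm_cent D))
  have hpow : ∀ x ∈ X, ∀ d ∈ D, ∀ n : ℕ, ∃ z ∈ Z, x * d * x⁻¹ = z * d ∧ x ^ n * d * (x ^ n)⁻¹ = z ^ n * d := by
    intro x hx d hd n
    refine ⟨x * d * x⁻¹ * d⁻¹, hXDZ x hx d hd, by group, ?_⟩
    induction n with
    | zero => simp
    | succ n ih =>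
      have hz := hXDZ x hx d hd
      have hc : ∀ m : ℕ, x * (x * d * x⁻¹ * d⁻¹) ^ m = (x * d * x⁻¹ * d⁻¹) ^ m * x := fun m =>
        (mem_centralizer_iff.1 (hXZ hx) _ (pow_mem hz m)).symm
      calc x ^ (n + 1) * d * (x ^ (n + 1))⁻¹ = x * (x ^ n * d * (x ^ n)⁻¹) * x⁻¹ := by rw [pow_succ']; group
        _ = x * ((x * d * x⁻¹ * d⁻¹) ^ n * d) * x⁻¹ := by rw [ih]
        _ = (x * (x * d * x⁻¹ * d⁻¹) ^ n) * d * x⁻¹ := by group
        _ = ((x * d * x⁻¹ * d⁻¹) ^ n * x) * d * x⁻¹ := by rw [hc]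
        _ = (x * d * x⁻¹ * d⁻¹) ^ (n + 1) * d := by rw [pow_succ]; group
  have hq : IsPGroup p (X ⧸ (centralizer (D : Set G)).subgroupOf X) := by
    intro q
    obtain ⟨x, rfl⟩ := QuotientGroup.mk_surjective q
    obtain ⟨n, hn⟩ := IsPGroup.iff_card.1 hD
    refine ⟨n, ?_⟩
    rw [← QuotientGroup.mk_pow, QuotientGroup.eq_one_iff, mem_subgroupOf]
    show ((x : G)) ^ p ^ n ∈ centralizer (D : Set G)
    rw [mem_centralizer_iff]
    intro d hd
    obtain ⟨z, hz, -, h2⟩ := hpow x x.2 d hd (p ^ n)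
    have h3 : z ^ p ^ n = 1 := by
      rw [← hn]
      have := pow_card_eq_one' (x := (⟨z, hZD hz⟩ : D))
      exact congrArg Subtype.val this
    rw [h3, one_mul, mul_inv_eq_iff_eq_mul] at h2
    exact h2.symm
  obtain ⟨n, hn⟩ := IsPGroup.iff_card.1 hq
  have h1 : (X ⊓ centralizer (D : Set G)).relIndex X = p ^ n := by
    rw [inf_relIndex_left, relIndex, index, hn]
  exact eq_of_relIndex_dvd hT h1 hTY hCY

variable (W : Subgroup G)

/-- the relation of the control of strong fusion. -/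
def Phi (A : Subgroup G) (g : G) : Prop := ∃ h ∈ normalizer (W : Set G), ∃ c ∈ centralizer (A : Set G), g = h * c

variable {W}

omit [Finite G] in
theorem Phi.mono {A A' : Subgroup G} {g : G} (h : A' ≤ A) (hg : Phi W A g) : Phi W A' g := by
  obtain ⟨h', hh, c, hc, rfl⟩ := hg
  exact ⟨h', hh, c, centralizer_le (SetLike.coe_subset_coe.2 h) hc, rfl⟩

omit [Finite G] in
theorem Phi.comp {A : Subgroup G} {g h : G} (hg : Phi W A g) (hh : Phi W (cj g A) h) : Phi W A (h * g) := by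
  obtain ⟨h₁, hh₁, c₁, hc₁, rfl⟩ := hg
  obtain ⟨h₂, hh₂, c₂, hc₂, rfl⟩ := hh
  refine ⟨h₂ * h₁, mul_mem hh₂ hh₁, (h₁⁻¹ * c₂ * h₁) * c₁, mul_mem ?_ hc₁, by group⟩
  rw [mem_centralizer_iff]
  intro a ha
  rw [mem_centralizer_iff] at hc₁ hc₂
  have h1 := hc₂ (h₁ * c₁ * a * (h₁ * c₁)⁻¹) (conj_mem_cj ha)
  have h2 : h₁ * c₁ * a * (h₁ * c₁)⁻¹ = h₁ * a * h₁⁻¹ := by
    rw [mul_inv_rev, mul_assoc h₁, ← hc₁ a ha]; group
  rw [h2] at h1
  calc a * (h₁⁻¹ * c₂ * h₁) = h₁⁻¹ * (h₁ * a * h₁⁻¹ * c₂) * h₁ := by group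
    _ = h₁⁻¹ * (c₂ * (h₁ * a * h₁⁻¹)) * h₁ := by rw [h1]
    _ = h₁⁻¹ * c₂ * h₁ * a := by group

omit [Finite G] in
theorem Phi.inv {A : Subgroup G} {g : G} (hg : Phi W A g) : Phi W (cj g A) g⁻¹ := by
  obtain ⟨h, hh, c, hc, rfl⟩ := hg
  refine ⟨h⁻¹, inv_mem hh, h * c⁻¹ * h⁻¹, ?_, by group⟩
  have h1 : cj (h * c) A = cj h A := by rw [cj_mul, mem_norm_iff.1 (cent_le_norm' A hc)]
  rw [h1, ← cj_centralizer]
  exact conj_mem_cj (inv_mem hc)

omit [Finite G] in
theorem Phi.cent {A : Subgroup G} {g : G} (hg : g ∈ centralizer (A : Set G)) : Phi W A g :=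
  ⟨1, one_mem _, g, hg, by group⟩

/-- the theorem for a subgroup `W` normalized by `N_G(P ∩ N)`. -/
theorem main (N : Subgroup G) [hNn : N.Normal] (P : Sylow p G) (W : Subgroup G)
    (hWn : normalizer (((P : Subgroup G) ⊓ N : Subgroup G) : Set G) ≤ normalizer (W : Set G))
    (hctrl : ∀ A : Subgroup G, A ≤ (P : Subgroup G) ⊓ N → ∀ n ∈ N, cj n A ≤ (P : Subgroup G) ⊓ N →
      ∃ h ∈ N ⊓ normalizer (W : Set G), ∃ c ∈ N ⊓ centralizer (A : Set G), n = h * c) :
    ∀ A : Subgroup G, A ≤ (P : Subgroup G) → ∀ g : G, cj g A ≤ (P : Subgroup G) → Phi W A g := by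
  obtain ⟨R, hRdef⟩ : ∃ R : Subgroup G, R = (P : Subgroup G) ⊓ N := ⟨_, rfl⟩
  rw [← hRdef] at hWn hctrl
  have hRN : IsSyl p R N := by
    rw [hRdef]
    exact (isSyl_top P).inf_normal le_top (by rw [normalizer_eq_top_iff.2 hNn])
  have hPR : (P : Subgroup G) ≤ normalizer (R : Set G) := by
    intro x hx
    rw [hRdef]
    exact norm_inf (le_normalizer hx) (by rw [normalizer_eq_top_iff.2 hNn]; trivial)
  have hPW : (P : Subgroup G) ≤ normalizer (W : Set G) := hPR.trans hWn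
  refine alperin_abstract P ⊥ bot_le (Phi W) (fun A' A g hA _ _ h => h.mono hA)
    (fun A g h _ _ _ h1 h2 => h1.comp h2) (fun A g _ _ h => h.inv) ?_ ?_
  · intro g hg
    refine ⟨g, hWn ?_, 1, one_mem _, by group⟩
    rw [hRdef]
    exact norm_inf hg (by rw [normalizer_eq_top_iff.2 hNn]; trivial)
  · intro A _ hAP IH
    have hPp : IsPGroup p (P : Subgroup G) := P.2
    -- choose the conjugate
    have hAN : A ≤ normalizer ((A ⊓ N : Subgroup G) : Set G) := fun a ha =>
      norm_inf (le_normalizer ha) (by rw [normalizer_eq_top_iff.2 hNn]; trivial)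
    obtain ⟨g₁, hg₁, hs₁⟩ := exists_cj_isSyl P hAN (hPp.to_le hAP.le)
    obtain ⟨D₁, hD₁⟩ : ∃ D₁ : Subgroup G, D₁ = cj g₁ A := ⟨_, rfl⟩
    obtain ⟨D₀, hD₀⟩ : ∃ D₀ : Subgroup G, D₀ = D₁ ⊓ N := ⟨_, rfl⟩
    have e0 : cj g₁ (normalizer ((A ⊓ N : Subgroup G) : Set G)) = normalizer (D₀ : Set G) := by
      rw [cj_normalizer, cj_inf, cj_normal g₁ N, hD₀, hD₁]
    rw [e0] at hs₁
    rw [← hD₁] at hg₁
    have hN1 : normalizer (D₁ : Set G) ≤ normalizer (D₀ : Set G) := by
      intro x hx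
      rw [hD₀]
      exact norm_inf hx (by rw [normalizer_eq_top_iff.2 hNn]; trivial)
    obtain ⟨T₁, hDT₁, hT₁⟩ := IsSyl.exists_of_le (le_normalizer (H := D₁)) (hPp.to_le hg₁)
    obtain ⟨g₂, hg₂, hg₂T⟩ := hs₁.conj_le (hT₁.1.trans hN1) hT₁.2.1
    obtain ⟨D, hD⟩ : ∃ D : Subgroup G, D = cj g₂ D₁ := ⟨_, rfl⟩
    have hDA : D = cj (g₂ * g₁) A := by rw [hD, hD₁, cj_mul]
    have hDN : D ⊓ N = D₀ := by
      have h1 := mem_norm_iff.1 hg₂
      rw [hD]
      conv_rhs => rw [← h1, hD₀, cj_inf, cj_normal g₂ N]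
    have hDP : D ≤ (P : Subgroup G) := by
      rw [hD]; exact (cj_mono hDT₁).trans (hg₂T.trans inf_le_left)
    have hsylD : IsSyl p ((P : Subgroup G) ⊓ normalizer (D : Set G)) (normalizer (D : Set G)) := by
      have h1 := hT₁.conj g₂
      rw [cj_normalizer, ← hD] at h1
      rw [h1.eq_inf hPp (hg₂T.trans inf_le_left)]
      exact h1
    refine ⟨g₂ * g₁, ?_, ?_, ?_⟩
    · rw [← hDA]; exact hDP
    · rw [← hDA]; exact hsylD
    rw [← hDA]
    have hDcard : Nat.card D = Nat.card A := by rw [hDA, card_cj]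
    intro y hy
    obtain ⟨M, hM⟩ : ∃ M : Subgroup G, M = normalizer (D₀ : Set G) := ⟨_, rfl⟩
    obtain ⟨C, hC⟩ : ∃ C : Subgroup G, C = N ⊓ centralizer (D₀ : Set G) := ⟨_, rfl⟩
    rw [← hM] at hs₁ hN1
    have hDM : normalizer (D : Set G) ≤ M := by
      intro x hx
      rw [hM, ← hDN]
      exact norm_inf hx (by rw [normalizer_eq_top_iff.2 hNn]; trivial)
    have hMC : M ≤ normalizer (C : Set G) := by
      intro x hx
      rw [hM] at hx
      rw [hC]
      exact norm_inf (by rw [normalizer_eq_top_iff.2 hNn]; trivial) (norm_le_norm_cent D₀ hx)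
    have hCM : C ≤ M := by rw [hC, hM]; exact inf_le_right.trans (cent_le_norm' D₀)
    have hDMM : D ≤ M := le_normalizer.trans hDM
    -- Sylow subgroups
    have hRC : IsSyl p ((P : Subgroup G) ⊓ M ⊓ C) C := hs₁.inf_normal hCM hMC
    have hCD : IsSyl p ((P : Subgroup G) ⊓ normalizer (D : Set G) ⊓ (C ⊓ normalizer (D : Set G)))
        (C ⊓ normalizer (D : Set G)) :=
      hsylD.inf_normal inf_le_right (fun x hx => norm_inf (hMC (hDM hx)) (le_normalizer hx))
    obtain ⟨RD, hRD⟩ : ∃ RD : Subgroup G,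
      RD = (P : Subgroup G) ⊓ normalizer (D : Set G) ⊓ (C ⊓ normalizer (D : Set G)) := ⟨_, rfl⟩
    rw [← hRD] at hCD
    have hRDP : RD ≤ (P : Subgroup G) := by rw [hRD]; exact inf_le_left.trans inf_le_left
    have hRDn : RD ≤ normalizer (D : Set G) := by rw [hRD]; exact inf_le_left.trans inf_le_right
    by_cases hcase : RD ≤ D
    · -- case B
      have hPMC : (P : Subgroup G) ⊓ M ⊓ C ≤ D := by
        by_contra hcon
        have hn1 : D ≤ normalizer (((P : Subgroup G) ⊓ M ⊓ C : Subgroup G) : Set G) := by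
          intro d hd
          exact norm_inf (norm_inf (le_normalizer (hDP hd)) (le_normalizer (hDMM hd))) (hMC (hDMM hd))
        have hlt : D < D ⊔ ((P : Subgroup G) ⊓ M ⊓ C) :=
          lt_of_le_of_ne le_sup_left (fun h => hcon (by rw [h]; exact le_sup_right))
        have h2 := lt_inf_normalizer (hPp.to_le (sup_le hDP (inf_le_left.trans inf_le_left))) hlt
        apply h2.not_ge
        intro x hx
        obtain ⟨d, hd, r, hr, rfl⟩ := (mem_sup_right_norm hn1).1 hx.1
        refine mul_mem hd (hcase ?_)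
        rw [hRD]
        have hrD : r ∈ normalizer (D : Set G) := by
          have : r = d⁻¹ * (d * r) := by group
          rw [this]
          exact Subgroup.mul_mem _ (Subgroup.inv_mem _ (le_normalizer hd)) hx.2
        exact ⟨⟨hr.1.1, hrD⟩, hr.2, hrD⟩
      have hcen : (P : Subgroup G) ⊓ M ⊓ C ≤ centralizer (C : Set G) := by
        intro x hx
        rw [mem_centralizer_iff]
        intro c hc
        rw [hC] at hc
        have hx0 : x ∈ D₀ := by
          rw [← hDN]
          refine ⟨hPMC hx, ?_⟩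
          have := hx.2
          rw [hC] at this
          exact this.1
        exact (mem_centralizer_iff.1 hc.2 x hx0).symm
      obtain ⟨K, hK⟩ : ∃ K : Subgroup G, K = opc p C := ⟨_, rfl⟩
      have hRK : ((P : Subgroup G) ⊓ M ⊓ C) ⊔ K = C := by rw [hK]; exact sup_opc_of_central hRC hcen
      have hKcop : (Nat.card K).Coprime p := by rw [hK]; exact card_opc C
      have hMK : M ≤ normalizer (K : Set G) := by rw [hK]; exact hMC.trans (norm_opc C)
      have hKC : K ≤ C := by rw [hK]; exact opc_le C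
      -- `y = h k`
      obtain ⟨n, hn, hny⟩ := hRN.frattini (y := y) (by rw [normalizer_eq_top_iff.2 hNn]; trivial)
      have hD₀R : D₀ ≤ R := by
        rw [← hDN, hRdef]; exact inf_le_inf_right _ hDP
      have hx0 : cj (n * y) D₀ ≤ R := by
        have := cj_mono (g := n * y) hD₀R
        rwa [mem_norm_iff.1 hny] at this
      have hy0 : cj y D₀ = D₀ := by
        have := hDM hy
        rw [hM] at this
        exact mem_norm_iff.1 this
      have hn0 : cj n⁻¹ (cj (n * y) D₀) = D₀ := by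
        rw [cj_mul, cj_inv_cj, hy0]
      obtain ⟨h, hh, c, hc, hnc⟩ := hctrl (cj (n * y) D₀) hx0 n⁻¹ (inv_mem hn) (by rw [hn0]; exact hD₀R)
      have hyd : y = (h * (n * y)) * ((n * y)⁻¹ * c * (n * y)) := by
        calc y = n⁻¹ * (n * y) := by group
          _ = h * c * (n * y) := by rw [hnc]
          _ = _ := by group
      have hc' : (n * y)⁻¹ * c * (n * y) ∈ C := by
        rw [hC]
        refine ⟨?_, ?_⟩
        · have := hNn.conj_mem c hc.1 (n * y)⁻¹
          rwa [inv_inv] at this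
        · have h1 : (n * y)⁻¹ * c * (n * y)⁻¹⁻¹ ∈ cj (n * y)⁻¹ (centralizer ((cj (n * y) D₀ : Subgroup G) : Set G)) :=
            conj_mem_cj hc.2
          rw [inv_inv, cj_centralizer, cj_inv_cj] at h1
          exact h1
      have hDCn : D ≤ normalizer (K : Set G) := hDMM.trans hMK
      have hc'' := hc'
      rw [← hRK] at hc''
      have hn2 : (P : Subgroup G) ⊓ M ⊓ C ≤ normalizer (K : Set G) := (inf_le_right.trans hCM).trans hMK
      obtain ⟨r, hr, k, hk, hrk⟩ := (mem_sup_right_norm hn2).1 hc''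
      rw [hrk] at hyd
      have hh' : h * (n * y) * r ∈ normalizer (W : Set G) :=
        mul_mem (mul_mem hh.2 (hWn hny)) (hPW hr.1.1)
      have hyk : y = h * (n * y) * r * k := by
        calc y = h * (n * y) * (r * k) := hyd
          _ = _ := by group
      have hkD : cj k D ≤ normalizer (W : Set G) := by
        have h1 : k = (h * (n * y) * r)⁻¹ * y := by
          rw [eq_inv_mul_iff_mul_eq]; exact hyk.symm
        rw [h1, cj_mul, mem_norm_iff.1 hy]
        refine (cj_mono (hDP.trans hPW)).trans ?_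
        rw [mem_norm_iff.1 (le_normalizer (inv_mem hh'))]
      obtain ⟨k', hk', c', hc'3, hkk⟩ := factor hKcop (hPp.to_le hDP) hDCn (hDP.trans hPW) hk hkD
      refine ⟨h * (n * y) * r * k', mul_mem hh' hk'.2, c', hc'3.2, ?_⟩
      calc y = h * (n * y) * r * k := hyk
        _ = h * (n * y) * r * (k' * c') := by rw [← hkk]
        _ = _ := by group
    · -- case A
      have hlt : D < D ⊔ RD := lt_of_le_of_ne le_sup_left (fun h => hcase (by rw [h]; exact le_sup_right))
      obtain ⟨c, hc, hcy⟩ := hCD.frattini (y := y) (norm_inf (hMC (hDM hy)) (le_normalizer hy))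
      -- `N_C(D) = RD C_C(D)`
      have hfac : C ⊓ normalizer (D : Set G) ≤ RD ⊔ (C ⊓ centralizer (D : Set G)) := by
        refine le_of_stab (Z := D ⊓ C) (hPp.to_le hDP) inf_le_right inf_le_left ?_ ?_ hCD le_sup_left ?_
        · intro x hx
          rw [mem_centralizer_iff]
          intro z hz
          have hz0 : z ∈ D₀ := by
            rw [← hDN]
            refine ⟨hz.1, ?_⟩
            have := hz.2
            rw [hC] at this
            exact this.1
          have hx1 := hx.1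
          rw [hC] at hx1
          exact mem_centralizer_iff.1 hx1.2 z hz0
        · intro x hx d hd
          refine ⟨?_, ?_⟩
          · exact Subgroup.mul_mem _ ((mem_normalizer_iff.1 hx.2 d).1 hd) (Subgroup.inv_mem _ hd)
          · have h1 := (mem_normalizer_iff.1 (hMC (hDMM hd)) x⁻¹).1 (inv_mem hx.1)
            have h2 := mul_mem hx.1 h1
            have e : x * (d * x⁻¹ * d⁻¹) = x * d * x⁻¹ * d⁻¹ := by group
            rwa [e] at h2
        · exact (inf_le_inf_right _ inf_le_left).trans le_sup_right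
      have hn3 : RD ≤ normalizer ((C ⊓ centralizer (D : Set G) : Subgroup G) : Set G) := by
        intro x hx
        exact norm_inf (hMC (hDM (hRDn hx))) (norm_le_norm_cent D (hRDn hx))
      obtain ⟨r, hr, c', hc', hrc⟩ := (mem_sup_right_norm hn3).1 (hfac hc)
      -- `y = c⁻¹ (c y)`, `c = r c'`
      have hcy2 : c * y ∈ normalizer (D : Set G) := mul_mem hc.2 hy
      have hcyn : c * y ∈ normalizer ((D ⊔ RD : Subgroup G) : Set G) := norm_sup hcy2 hcy
      have hm : r⁻¹ * (c * y) ∈ normalizer ((D ⊔ RD : Subgroup G) : Set G) :=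
        mul_mem (inv_mem (norm_sup (hRDn hr) (le_normalizer hr))) hcyn
      have hPDR : D ⊔ RD ≤ (P : Subgroup G) := sup_le hDP hRDP
      have h1 : Phi W (D ⊔ RD) (r⁻¹ * (c * y)) :=
        IH (D ⊔ RD) hPDR (by rw [← hDcard]; exact card_lt_card_of_lt hlt) _
          (by rw [mem_norm_iff.1 hm]; exact hPDR)
      have h2 : Phi W D (r⁻¹ * (c * y)) := h1.mono le_sup_left
      have hrD : r⁻¹ * (c * y) ∈ normalizer (D : Set G) := mul_mem (inv_mem (hRDn hr)) hcy2
      have h3 : Phi W D (c'⁻¹ * (r⁻¹ * (c * y))) := by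
        refine h2.comp ?_
        rw [mem_norm_iff.1 hrD]
        exact Phi.cent (inv_mem hc'.2)
      have h4 : c'⁻¹ * (r⁻¹ * (c * y)) = y := by rw [hrc]; group
      rwa [h4] at h3

/-- control of strong fusion by conjugates simultaneously. -/
theorem iterate (N : Subgroup G) (R : Subgroup G) (F : Finset (Subgroup G))
    (hF : ∀ V ∈ F, V ≤ R ∧ R ≤ normalizer (V : Set G) ∧ ∀ A : Subgroup G, A ≤ R → ∀ n ∈ N, cj n A ≤ R →
      ∃ h ∈ N ⊓ normalizer (V : Set G), ∃ c ∈ N ⊓ centralizer (A : Set G), n = h * c) :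
    ∀ A : Subgroup G, A ≤ R → ∀ n ∈ N, cj n A ≤ R →
      ∃ h ∈ N, (∀ V ∈ F, h ∈ normalizer (V : Set G)) ∧ ∃ c ∈ N ⊓ centralizer (A : Set G), n = h * c := by
  classical
  induction F using Finset.induction_on with
  | empty =>
    intro A hA n hn hnA
    exact ⟨n, hn, by simp, 1, one_mem _, by group⟩
  | insert V F hV ih =>
    intro A hA n hn hnA
    obtain ⟨h₁, hh₁, hh₁F, c₁, hc₁, rfl⟩ := ih (fun V' hV' => hF V' (Finset.mem_insert_of_mem hV')) A hA n hn hnA
    have hFR : F.sup id ≤ R := Finset.sup_le (fun V' hV' => (hF V' (Finset.mem_insert_of_mem hV')).1)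
    have h1 : cj h₁ (A ⊔ F.sup id) ≤ R := by
      rw [cj_sup]
      refine sup_le ?_ ?_
      · have : cj (h₁ * c₁) A = cj h₁ A := by rw [cj_mul, mem_norm_iff.1 (cent_le_norm' A hc₁.2)]
        rwa [this] at hnA
      · have : cj h₁ (F.sup id) ≤ F.sup id := by
          rw [cj, Subgroup.map_le_iff_le_comap]
          refine Finset.sup_le (fun V' hV' => ?_)
          rw [← Subgroup.map_le_iff_le_comap]
          have h2 : cj h₁ V' = V' := mem_norm_iff.1 (hh₁F V' hV')
          refine le_trans h2.le ?_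
          exact Finset.le_sup (f := id) hV'
        exact this.trans hFR
    obtain ⟨hVR, hRV, hctrl⟩ := hF V (Finset.mem_insert_self V F)
    obtain ⟨h₂, hh₂, c₂, hc₂, hh⟩ := hctrl (A ⊔ F.sup id) (sup_le hA hFR) h₁ hh₁ h1
    refine ⟨h₂, hh₂.1, ?_, c₂ * c₁, mul_mem ⟨hc₂.1, centralizer_le
      (SetLike.coe_subset_coe.2 le_sup_left) hc₂.2⟩ hc₁, by rw [hh]; group⟩
    intro V' hV'
    rw [Finset.mem_insert] at hV'
    rcases hV' with rfl | hV'
    · exact hh₂.2
    · have h3 : h₂ = h₁ * c₂⁻¹ := by rw [hh]; group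
      rw [h3]
      refine mul_mem (hh₁F V' hV') (inv_mem (cent_le_norm' V' ?_))
      refine centralizer_le (SetLike.coe_subset_coe.2 ?_) hc₂.2
      exact (Finset.le_sup (f := id) hV').trans le_sup_right

end Cfsg.Agent.ZJ.NL
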